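/- Groups whose `p'`-subgroups are abelian of exponent dividing `p - 1`: local analysis.  Owner: helper3. -/
import Cfsg.Agent.FT.Cons.Basic
import Cfsg.Agent.FT.Main
import Cfsg.Agent.Lib.Transfer.AbelianSylow
import Cfsg.Agent.Lib.ZJ.SL2Free
import Cfsg.Agent.Lib.ZJ.Main
import Cfsg.Agent.S2004

set_option autoImplicit false

namespace Cfsg.Agent.FT.Cons

open Subgroup Cfsg.Agent.Lib Cfsg.Agent.Lib.Core
open scoped Cfsg.Agent.Lib.Glaub commutatorElement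

variable {G : Type*} [Group G] [Finite G] {p : ℕ} [hp : Fact p.Prime] {A B H K M N R S T X Y E : Subgroup G}
  {x y g t : G}

/-- a solvable group with an abelian Hall `p'`-subgroup -/
theorem hall_struct (hs : Group.IsSolvable H) (hA : IsHall {p}ᶜ A H) (hab : A ≤ 𝐂(A)) :
    (OpOf p H ⊔ A) ⊲ H ∧ ∀ R : Subgroup G, IsPGroup p R → R ≤ H → A ≤ 𝐍(R) → R ≤ OpOf p H := by
  obtain ⟨Q, _, _, f, hf, hk, -⟩ := exists_bar (OpOf_le (p := p) H) (OpOf_nrm p H).norm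
  have hO : OpOf p (bar f H) = ⊥ := by
    have e : f.ker = pCore p H := by rw [← kerOf_subgroupOf, hk, OpOf_subgroupOf]
    rw [bar_self f hf, OpOf_top, ← map_pCore_eq f hf (e ▸ pCore_isPGroup), ← e, Subgroup.map_eq_bot_iff]
  have hF : fittingOf (bar f H) ≤ bar f A := by
    refine (hA.bar f le_rfl).nrm_le (isPi_compl_iff.mpr fun hd => ?_) (fittingOf_nrm _)
    exact (isSyl_OpOf_fittingOf (p := p) (bar f H)).ne_bot hd hO
  have hC : bar f H ⊓ 𝐂(bar f A) ≤ fittingOf (bar f H) :=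
    (inf_le_inf_left _ (cent_anti hF)).trans (inf_centralizer_fittingOf_le_of_isSolvable (isSolvable_bar f hs le_rfl))
  have e : bar f A = fittingOf (bar f H) :=
    le_antisymm ((le_inf (bar_mono f hA.le) (bar_le_centralizer f hab)).trans hC) hF
  have hn : bar f H ≤ 𝐍(bar f A) := e ▸ (fittingOf_nrm _).norm
  refine ⟨⟨sup_le (OpOf_le H) hA.le, ?_⟩, fun R hR hRH hAR => ?_⟩
  · rw [sup_comm, ← hk]; exact le_normalizer_sup_kerOf f le_rfl hA.le hn
  · have h0 := inf_eq_bot_of_isPGroup_of_not_dvd (isPGroup_bar f hR) (not_dvd_card_bar f (isPi_compl_iff.mp hA.isPi))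
    rw [← hk, ← bar_eq_bot_iff f hRH, eq_bot_iff, ← h0]
    exact le_inf le_rfl ((le_inf (bar_mono f hRH) (le_centralizer_of_inf_eq_bot ((bar_mono f hRH).trans hn)
      (bar_le_normalizer f hAR) h0)).trans (hC.trans hF))

theorem hall_fact (hs : Group.IsSolvable H) (hA : IsHall {p}ᶜ A H) (hab : A ≤ 𝐂(A)) :
    IsProd (OpOf p H ⊔ A) (H ⊓ 𝐍(A)) H :=
  have h := (hall_struct hs hA hab).1
  Hall_Frattini_arg (isSolvable_of_le hs h.le) h (hA.mono le_sup_right h.le)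

/-- the `ZJ`-theorem for solvable subgroups, `p ≥ 5` -/
theorem zj_amb (h5 : 5 ≤ p) (hs : Group.IsSolvable Y) (hO : OppOf p Y = ⊥) (hT : IsSyl p T Y) :
    Y ≤ 𝐍(ZJ.ZJT p T) := by
  have h2 : p ≠ 2 := by omega
  have hst := Glaub.pStable_of_isSec (S2004.result (G := Y) h2 fun Q _ _ h =>
    ZJ.not_isSec_SL2_of_isSolvable h2 hs (by omega) ((Glaub.involves_iff_isSec.mp h).trans (Glaub.IsSec.subgroup _)))
    Glaub.IsSec.refl
  have hO' : pPrimeCore p Y = ⊥ := by rw [← OppOf_subgroupOf, hO, bot_subgroupOf]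
  have hC := (psolv_of_isSolvable (p := p) (H := (⊤ : Subgroup Y)) inferInstance).centralizer_pCore_le hO'
  obtain ⟨P, rfl⟩ := hT.exists_sylow_map
  haveI := (ZJ.nStable_of_pStable hst).zj_normal h2 dvd_rfl hC (isSyl_sylow P)
  rw [← ZJ.map_ZJT Y.subtype_injective]
  exact le_normalizer_map_subtype_of_normal _

/-- the hypothesis -/
def AP (p : ℕ) (G : Type*) [Group G] : Prop :=
  ∀ H : Subgroup G, ¬ p ∣ Nat.card H → H ≤ 𝐂(H) ∧ ∀ x ∈ H, x ^ (p - 1) = 1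

omit [Finite G] hp in
theorem AP.sub (h : AP p G) (K : Subgroup G) : AP p K := fun H hH => by
  obtain ⟨h1, h2⟩ := h (H.map K.subtype) (by rwa [card_map_subtype])
  exact ⟨fun x hx y hy => Subtype.ext (h1 ⟨x, hx, rfl⟩ y ⟨y, hy, rfl⟩),
    fun x hx => Subtype.ext (h2 x ⟨x, hx, rfl⟩)⟩

theorem AP.map (h : AP p G) {Q : Type*} [Group Q] (f : G →* Q) (hf : Function.Surjective f) : AP p Q := fun H hH => by
  obtain ⟨L, -, hL, hmin⟩ := exists_minimal_subgroup (P := fun L : Subgroup G => L.map f = H)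
    (map_comap_eq_self_of_surjective hf H)
  have hd : ¬ p ∣ Nat.card L := by
    obtain ⟨P, hP⟩ := exists_isSyl p (f.ker ⊓ L)
    have hn : f.ker ⊓ L ⊲ L := ⟨inf_le_right, le_normalizer_inf (normalizer_eq_top f.ker ▸ le_top) le_normalizer⟩
    have h1 : L ⊓ 𝐍(P) = L := hmin _ (by
      rw [← hL]; conv_rhs => rw [← (hP.isProd_frattini hn).sup_eq]
      rw [Subgroup.map_sup, (Subgroup.map_eq_bot_iff _).mpr inf_le_left, bot_sup_eq]) inf_le_left
    have h2 : IsSyl p P L := hP.trans inf_le_right (by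
      have := card_map_mul_card_inf_ker f L
      rw [← card_mul_relIndex (inf_le_right : f.ker ⊓ L ≤ L), mul_comm, hL] at this
      rwa [← Nat.eq_of_mul_eq_mul_left (card_pos _) this])
    obtain ⟨K, hK⟩ := h2.hall.exists_sdp (inf_eq_left.mp h1)
    have h3 : K = L := hmin K (by
      rw [← hL, ← hK.sup, Subgroup.map_sup, (Subgroup.map_eq_bot_iff _).mpr (hP.le.trans inf_le_left), bot_sup_eq])
      hK.right_le
    intro hd
    exact h2.ne_bot hd (hK.left_eq_bot_iff.mpr h3)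
  obtain ⟨h1, h2⟩ := h L hd
  subst hL
  refine ⟨isComm_iff_le_cent.mp (isComm_map (isComm_iff_le_cent.mpr h1) f), ?_⟩
  rintro _ ⟨x, hx, rfl⟩
  rw [← map_pow, h2 x hx, map_one]

/-- minimal counterexample -/
structure MC (p : ℕ) (G : Type*) [Group G] : Prop where
  ap : AP p G
  five : 5 ≤ p
  simple : IsSimpleGroup G
  nsol : ¬ Group.IsSolvable G
  sol : ∀ H : Subgroup G, H ≠ ⊤ → Group.IsSolvable H

namespace MC

variable (h : MC p G)
include h

omit hp in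
theorem norm_ne (h0 : X ≠ ⊥) (hs : Group.IsSolvable X) : 𝐍(X) ≠ ⊤ := fun e => by
  haveI := h.simple
  rcases (normalizer_eq_top_iff.mp e).eq_bot_or_eq_top with e | e
  · exact h0 e
  · subst e; exact h.nsol (Group.isSolvable_of_surjective (f := (topEquiv (G := G)).toMonoidHom) topEquiv.surjective)

omit hp in
theorem C1_ne (hx : x ≠ 1) : C1 x ≠ ⊤ := fun e =>
  h.norm_ne (zpowers_ne_bot.mpr hx) (isSolvable_of_isComm (isComm_zpowers x))
    (eq_top_iff.mpr (e.ge.trans ((cent_zpowers x).ge.trans (cent_le_norm _))))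

omit hp in
theorem ne_two : p ≠ 2 := by have := h.five; omega

theorem nd2 (hS : IsPGroup 2 S) : ¬ p ∣ Nat.card S := not_dvd_card_of_isPGroup hS h.ne_two

theorem le_cent (hS : IsPGroup 2 S) (hX : ¬ p ∣ Nat.card X) (hn : X ≤ 𝐍(S)) : X ≤ 𝐂(S) :=
  le_sup_left.trans ((h.ap _ (not_dvd_card_sup hX (h.nd2 hS) hn)).1.trans (cent_anti le_sup_right))

theorem five_le (hS : IsSyl 2 S ⊤) : 5 ≤ Nat.card (Ohm1 S) := by
  have hab := (h.ap S (h.nd2 hS.isPGroup)).1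
  haveI := h.simple
  have hev : 2 ∣ Nat.card G := (even_of_simple feit_thompson fun _ => h.nsol inferInstance).two_dvd
  have h1 : ¬ 𝐍(S) ≤ 𝐂(S) := fun hc => by
    obtain ⟨P, rfl⟩ := hS.exists_sylow_top
    haveI := isComm_iff_le_cent.mpr hab
    obtain ⟨N, hN, hc⟩ := (Transfer.hasNormalPComplement_iff_sylow P).mp
      (Transfer.hasNormalPComplement_of_abelian_sylow P fun g hg _ => hc hg)
    rcases hN.eq_bot_or_eq_top with rfl | rfl
    · exact h.norm_ne (hS.ne_bot (by rwa [card_top])) (isSolvable_of_isPGroup hS.isPGroup)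
        (eq_top_iff.mpr ((isComplement'_bot_left.mp hc).ge.trans le_normalizer))
    · exact hS.ne_bot (by rwa [card_top]) (isComplement'_top_left.mp hc)
  obtain ⟨P, hP⟩ := exists_isSyl p 𝐍(S)
  have h2 : ¬ P ≤ 𝐂(Ohm1 S) := fun hc => h1 (le_of_forall_isSyl fun q hq => by
    haveI := Fact.mk hq
    by_cases e : p = q
    · subst e
      refine ⟨P, hP, fun x hx => ZJ.mem_centralizer_of_omega hS.isPGroup hab (hP.le hx) ?_
        fun v hv hv2 => hc hx v (mem_Ohm1_of_pow hv hv2)⟩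
      exact coprime_iff_not_dvd.mpr fun hd =>
        not_dvd_card_of_isPGroup hP.isPGroup h.ne_two.symm (hd.trans (orderOf_dvd_card hx))
    · obtain ⟨Q, hQ⟩ := exists_isSyl q 𝐍(S)
      exact ⟨Q, hQ, h.le_cent hS.isPGroup (not_dvd_card_of_isPGroup hQ.isPGroup e) hQ.le⟩)
  have h3 := Transfer.card_modEq_card_inf_centralizer hP.isPGroup (hP.le.trans (norm_le_norm_Ohm1 S))
  have h4 : Nat.card ↥(Ohm1 S ⊓ 𝐂(P)) < Nat.card (Ohm1 S) :=
    card_lt_of_lt (lt_of_le_of_ne inf_le_left fun e => h2 (cent_comm.mp (inf_eq_left.mp e)))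
  have := Nat.le_of_dvd (Nat.sub_pos_of_lt h4) ((Nat.modEq_iff_dvd' h4.le).mp h3.symm)
  have := h.five
  omega

theorem isHall (hA : ¬ p ∣ Nat.card A) (hmax : ∀ K : Subgroup G, ¬ p ∣ Nat.card K → A ≤ K → K = A) (hH : H ≠ ⊤)
    (hAH : A ≤ H) : IsHall {p}ᶜ A H :=
  isHall_of_maximal (h.sol H hH) hAH (isPi_compl_iff.mpr hA) fun L hL h1 _ => hmax L (isPi_compl_iff.mp hL) h1

/-- uniqueness of the maximal `A`-invariant `p`-subgroup -/
theorem exists_R (hS : IsSyl 2 S ⊤) (hSA : S ≤ A) (hA : ¬ p ∣ Nat.card A)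
    (hmax : ∀ K : Subgroup G, ¬ p ∣ Nat.card K → A ≤ K → K = A) :
    ∃ R : Subgroup G, IsPGroup p R ∧ A ≤ 𝐍(R) ∧ ∀ R' : Subgroup G, IsPGroup p R' → A ≤ 𝐍(R') → R' ≤ R := by
  have hab := (h.ap A hA).1
  let I : Subgroup G → Prop := fun R => IsPGroup p R ∧ A ≤ 𝐍(R)
  have hO : ∀ H, H ≠ ⊤ → A ≤ H → I (OpOf p H) ∧ ∀ R, I R → R ⊓ H ≤ OpOf p H := fun H hH hAH =>
    ⟨⟨OpOf_isPGroup H, le_normalizer_OpOf (hAH.trans le_normalizer)⟩, fun R hR =>
      (hall_struct (h.sol H hH) (h.isHall hA hmax hH hAH) hab).2 _ hR.1.to_inf_left inf_le_right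
        (le_normalizer_inf hR.2 (hAH.trans le_normalizer))⟩
  obtain ⟨R, -, hR, hRmax⟩ := exists_maximal_subgroup (P := I) (H := ⊥) ⟨IsPGroup.of_bot, le_norm_bot⟩
  refine ⟨R, hR.1, hR.2, ?_⟩
  -- maximal members meeting non-trivially are equal
  have key : ∀ D : Subgroup G, D ≠ ⊥ → ∀ R₁ R₂, I R₁ → (∀ K, I K → R₁ ≤ K → K = R₁) → I R₂ →
      (∀ K, I K → R₂ ≤ K → K = R₂) → D = R₁ ⊓ R₂ → R₁ = R₂ := by
    intro D
    induction D using subgroup_induction_gt with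
    | h D ih =>
    rintro hD R₁ R₂ h1 m1 h2 m2 rfl
    by_contra hne
    obtain ⟨a, b⟩ := hO _ (h.norm_ne hD (isSolvable_of_isPGroup h1.1.to_inf_left)) (le_normalizer_inf h1.2 h2.2)
    obtain ⟨R₃, h3, h4, m3⟩ := exists_maximal_subgroup (P := I) a
    have l1 : R₁ ⊓ R₂ < R₁ := lt_of_le_of_ne inf_le_left fun e => hne (m1 _ h2 (inf_eq_left.mp e)).symm
    have l2 : R₁ ⊓ R₂ < R₂ := lt_of_le_of_ne inf_le_right fun e => hne (m2 _ h1 (inf_eq_right.mp e))
    have k1 := (lt_inf_normalizer_of_isPGroup h1.1 l1).trans_le (le_inf inf_le_left ((b _ h1).trans h3))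
    have k2 := (lt_inf_normalizer_of_isPGroup h2.1 l2).trans_le (le_inf inf_le_left ((b _ h2).trans h3))
    exact hne ((ih _ k1 (ne_bot_of_gt k1) _ _ h1 m1 h4 m3 rfl).trans
      (ih _ k2 (ne_bot_of_gt k2) _ _ h2 m2 h4 m3 rfl).symm)
  intro R' a b
  obtain ⟨R₂, h3, h2, m2⟩ := exists_maximal_subgroup (P := I) (H := R') ⟨a, b⟩
  refine h3.trans ?_
  by_cases e2 : R₂ = ⊥
  · exact e2.le.trans bot_le
  by_cases e1 : R = ⊥
  · exact (hRmax _ h2 (e1.le.trans bot_le)).le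
  have hE := Ohm1_abelem' hS.isPGroup (isComm_iff_le_cent.mpr (h.ap S (h.nd2 hS.isPGroup)).1)
  have hEA := (Ohm1_le S).trans hSA
  have cop : ∀ {F R : Subgroup G}, F ≤ A → I R → (Nat.card F).Coprime (Nat.card R) := fun hF hR =>
    (coprime_card_of_isPGroup hR.1 (not_dvd_card_of_le hA hF)).symm
  obtain ⟨F, hF, hFR⟩ : ∃ F, IsCocyclic F (Ohm1 S) ∧ R ⊓ 𝐂(F) ≠ ⊥ := by
    by_contra! hc
    exact e1 (eq_bot_iff.mpr (le_of_cocyclic_centralizers hE.1 (hEA.trans hR.2) (cop hEA hR)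
      fun B hB => (hc B hB).le))
  have hFA := hF.1.trans hEA
  obtain ⟨x, hx, hx1, hxR⟩ : ∃ x ∈ F, x ≠ 1 ∧ R₂ ⊓ C1 x ≠ ⊥ := by
    by_contra! hc
    refine e2 (eq_bot_iff.mpr (le_of_centralizers (isComm_of_le hE.1 hF.1) (fun hcy => ?_) (hFA.trans h2.2)
      (cop hFA h2) fun a ha h1 => (hc a ha h1).le))
    have := hF.card_le hE
    have := card_le_of_isCyclic_of_isElementaryAbelian (abelem_of_le hE hF.1) hcy
    have := h.five_le hS
    omega
  obtain ⟨a, b⟩ := hO _ (h.C1_ne hx1) (le_C1_iff.mpr (hab (hFA hx)))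
  obtain ⟨R₃, h3, h4, m3⟩ := exists_maximal_subgroup (P := I) a
  rw [key _ (ne_bot_of_le (le_inf inf_le_left ((b _ h2).trans h3)) hxR) _ _ h2 m2 h4 m3 rfl,
    key _ (ne_bot_of_le (le_inf inf_le_left ((inf_le_inf_left _ (cent_le_C1 hx)).trans ((b _ hR).trans h3))) hFR)
      _ _ hR hRmax h4 m3 rfl]

theorem exists_M (hS : IsSyl 2 S ⊤) : ∃ A M : Subgroup G, S ≤ A ∧ M ≠ ⊤ ∧ IsHall {p}ᶜ A M ∧
    ∀ H, H ≠ ⊤ → S ≤ H → H ≤ M := by
  obtain ⟨A, hSA, hA, hmax⟩ := exists_maximal_subgroup (P := fun K : Subgroup G => ¬ p ∣ Nat.card K) (h.nd2 hS.isPGroup)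
  obtain ⟨R, hR, hAR, hu⟩ := h.exists_R hS hSA hA hmax
  have h5 := h.five_le hS
  have hE := Ohm1_abelem' hS.isPGroup (isComm_iff_le_cent.mpr (h.ap S (h.nd2 hS.isPGroup)).1)
  have hS0 : S ≠ ⊥ := fun e => by rw [e, Ohm1_bot, card_bot] at h5; omega
  have hab := (h.ap A hA).1
  have hN : 𝐍(A) ≤ 𝐍(R) := fun g hg => mem_normalizer_of_conj_mem (cj_le_iff.mp (hu _ (isPGroup_cj.mpr hR)
    (by rw [← cj_eq_of_mem_norm hg]; exact cj_le_norm_cj.mpr hAR)))
  have hM : R ⊔ 𝐍(A) ≠ ⊤ := by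
    by_cases e : R = ⊥
    · rw [e, bot_sup_eq]
      exact h.norm_ne (ne_bot_of_le hSA hS0) (isSolvable_of_isComm (isComm_iff_le_cent.mpr hab))
    · exact ne_top_of_le_ne_top (h.norm_ne e (isSolvable_of_isPGroup hR)) (sup_le le_normalizer hN)
  have k1 : ∀ H, H ≠ ⊤ → A ≤ H → H ≤ R ⊔ 𝐍(A) := fun H hH hAH =>
    (hall_fact (h.sol H hH) (h.isHall hA hmax hH hAH) hab).le
      (sup_le_sup (hu _ (OpOf_isPGroup H) (le_normalizer_OpOf (hAH.trans le_normalizer))) le_normalizer)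
      (inf_le_right.trans le_sup_right)
  refine ⟨A, R ⊔ 𝐍(A), hSA, hM, h.isHall hA hmax hM (le_normalizer.trans le_sup_right), fun H hH hSH => ?_⟩
  obtain ⟨B, hB, hSB⟩ := Hall_superset (π := {p}ᶜ) (h.sol H hH) hSH (isPi_compl_iff.mpr (h.nd2 hS.isPGroup))
  have hBab := (h.ap B (isPi_compl_iff.mp hB.isPi)).1
  have k2 : 𝐍(S) ≤ R ⊔ 𝐍(A) := k1 _ (h.norm_ne hS0 (isSolvable_of_isPGroup hS.isPGroup))
    (hab.trans ((cent_anti hSA).trans (cent_le_norm S)))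
  have k3 : B ≤ 𝐍(S) := hBab.trans ((cent_anti hSB).trans (cent_le_norm S))
  refine (hall_fact (h.sol H hH) hB hBab).le (sup_le ?_ (k3.trans k2))
    (inf_le_right.trans (((hS.mono hSB le_top).norm_le_norm k3).trans k2))
  refine le_of_centralizers hE.1 (fun hcy => ?_) (le_normalizer_OpOf (((Ohm1_le S).trans hSH).trans le_normalizer))
    (coprime_card_of_isPGroup (OpOf_isPGroup H) (h.nd2 (abelem_isPGroup hE))).symm fun a ha h1 =>
      inf_le_right.trans (k1 _ (h.C1_ne h1) (le_C1_iff.mpr (hab (hSA (Ohm1_le S ha)))))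
  have := card_le_of_isCyclic_of_isElementaryAbelian hE hcy
  omega

end MC

end Cfsg.Agent.FT.Cons
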