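/- Actions in which every involution has exactly one fixed point.  Owner: helper3. -/
import Cfsg.Agent.FT.Cons.AbP1
import Cfsg.Agent.Lib.Invol.Dihedral

set_option autoImplicit false

namespace Cfsg.Agent.FT.Cons

open Subgroup MulAction Cfsg.Agent.Lib Cfsg.Agent.Lib.Core Cfsg.Agent.Lib.Invol
open scoped Cfsg.Agent.Lib.Glaub commutatorElement

variable {G : Type*} [Group G] [Finite G] {p : ℕ} {Ω : Type*} [MulAction G Ω] {α β γ ω ω' : Ω}
  {A M S T : Subgroup G} {k s s' t u u' x g : G}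

omit [Finite G] in
theorem ncard_class (M : Subgroup G) (s : G) : {x | ConjElt M s x}.ncard = (C1 s).relIndex M := by
  letI : MulAction M G := MulAction.compHom G ((MulAut.conj (G := G)).comp M.subtype)
  have h := MulAction.index_stabilizer M s
  rw [show stabilizer M s = (C1 s).subgroupOf M from ext fun m => mem_C1_iff_conj.symm] at h
  rw [relIndex, h]; congr 1; ext x
  exact ⟨fun ⟨g, hg, e⟩ => ⟨⟨g, hg⟩, e.symm⟩, fun ⟨g, e⟩ => ⟨g, g.2, e.symm⟩⟩

omit [Finite G] in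
theorem sq_of_inverts_odd (h : x * k * x⁻¹ = k⁻¹) (n : ℕ) (hn : Odd n) : x ^ n * k * (x ^ n)⁻¹ = k⁻¹ := by
  obtain ⟨j, rfl⟩ := hn
  have h2 : Commute (x ^ 2) k := by
    have : x ^ 2 * k * (x ^ 2)⁻¹ = x * (x * k * x⁻¹) * x⁻¹ := by rw [sq]; group
    rw [h, show x * k⁻¹ * x⁻¹ = (x * k * x⁻¹)⁻¹ by group, h, inv_inv] at this
    exact mul_inv_eq_iff_eq_mul.mp this
  rw [pow_succ', pow_mul, mul_assoc x, (h2.pow_left j).eq, ← h]; group

omit [Finite G] in
theorem eq_one_of_odd (hk : Odd (orderOf k)) (h : k * k = 1) : k = 1 := by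
  obtain ⟨j, hj⟩ := hk
  rw [← pow_orderOf_eq_one k, hj, pow_succ, pow_mul, sq, h, one_pow, one_mul]

theorem mersenne {n j : ℕ} (hp : Odd p) (h : 2 ^ n = p ^ j + 1) (h4 : 4 ∣ 2 ^ n) : p ^ j = p := by
  have key : ∀ i : ℕ, ∃ c : ℤ, Odd c ∧ (p : ℤ) ^ (2 * i + 1) + 1 = (p + 1) * c := fun i => by
    induction i with
    | zero => exact ⟨1, odd_one, by ring⟩
    | succ i ih =>
      obtain ⟨c, hc, e⟩ := ih
      have hp' : Odd (p : ℤ) := by exact_mod_cast hp
      refine ⟨p ^ 2 * c - p + 1, ((hp'.pow.mul hc).sub_odd hp').add_one, ?_⟩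
      linear_combination (p : ℤ) ^ 2 * e
  rcases Nat.even_or_odd' j with ⟨i, rfl | rfl⟩
  · obtain ⟨c, hc⟩ := (hp.pow (n := i))
    rw [h, mul_comm, pow_mul, hc, show (2 * c + 1) ^ 2 + 1 = 4 * (c * c + c) + 2 by ring] at h4
    omega
  · obtain ⟨c, hc, e⟩ := key i
    have h1 : c.natAbs ∣ 2 ^ n := by
      rw [h, ← Int.natCast_dvd_natCast, Int.natAbs_dvd]; push_cast; exact ⟨p + 1, by rw [e]; ring⟩
    have h2 : c.natAbs = 1 :=
      (Nat.Coprime.pow_right n (Nat.coprime_two_right.mpr (Int.natAbs_odd.mpr hc))).eq_one_of_dvd h1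
    have h3 : (0 : ℤ) < (p : ℤ) ^ (2 * i + 1) + 1 := by positivity
    rcases Int.natAbs_eq_iff.mp h2 with rfl | rfl
    · exact_mod_cast (by simpa using e : (p : ℤ) ^ (2 * i + 1) = p)
    · rw [e] at h3; push_cast at h3; omega

/-- every involution has exactly one fixed point -/
structure SE (G : Type*) [Group G] (Ω : Type*) [MulAction G Ω] : Prop where
  ex : ∀ t : G, orderOf t = 2 → ∃ ω : Ω, t • ω = ω
  uniq : ∀ {t : G} {ω ω' : Ω}, orderOf t = 2 → t • ω = ω → t • ω' = ω' → ω = ω'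
  inv : ∀ ω : Ω, ∃ t : G, orderOf t = 2 ∧ t • ω = ω

namespace SE

variable (h : SE G Ω)
include h

omit [Finite G] in
theorem fix_of_comm (hs : orderOf s = 2) (h1 : s • ω = ω) (hc : Commute x s) : x • ω = ω :=
  h.uniq hs (by rw [smul_smul, ← hc.eq, mul_smul, h1]) h1

theorem odd (hs : orderOf s = 2) (hu : orderOf u = 2) (h1 : s • α = α) (h2 : u • β = β) (hn : α ≠ β) :
    Odd (orderOf (s * u)) := by
  by_contra he
  obtain ⟨a, b, c⟩ := half_pow_central (mul_self_of_orderOf_two hs) (mul_self_of_orderOf_two hu)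
    (Nat.not_odd_iff_even.mp he)
  exact hn (h.uniq a (h.fix_of_comm hs h1 b) (h.fix_of_comm hu h2 c))

theorem odd_of_fix (h1 : k • α = α) (h2 : k • β = β) (hn : α ≠ β) : Odd (orderOf k) := by
  by_contra he
  exact hn (h.uniq (orderOf_half_pow (orderOf_pos k).ne' (Nat.not_odd_iff_even.mp he))
    (pow_mem (mem_stabilizer_iff.mpr h1) _) (pow_mem (mem_stabilizer_iff.mpr h2) _))

theorem fix_of_inverts (hs : orderOf s = 2) (hu : orderOf u = 2) (h1 : s • α = α) (hc : Commute s k)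
    (hi : u * k * u⁻¹ = k⁻¹) (hk : k * k ≠ 1) : u • α = α := by
  obtain ⟨β, hβ⟩ := h.ex u hu
  by_contra hn
  have := sq_of_inverts_odd (x := s * u) (k := k)
    (by rw [mul_inv_rev, mul_assoc s, mul_assoc s, ← mul_assoc (u * k), hi, ← mul_assoc, hc.inv_right.eq]; group) _
    (h.odd hs hu h1 hβ fun e => hn (e ▸ hβ))
  rw [pow_orderOf_eq_one, one_mul, inv_one, mul_one] at this
  exact hk (mul_eq_one_iff_eq_inv.mpr this)

theorem exists_swap (hs : orderOf s = 2) (hs' : orderOf s' = 2) (h1 : s • α = α) (h2 : s' • β = β) (hn : α ≠ β) :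
    ∃ u : G, orderOf u = 2 ∧ u * s * u = s' ∧ u • α = β := by
  have q := mul_self_of_orderOf_two hs
  have q' := mul_self_of_orderOf_two hs'
  obtain ⟨j, hj⟩ := exists_pow_conj_of_odd q q' (h.odd hs hs' h1 h2 hn)
  have e : (s * s') ^ j * s * ((s * s') ^ j * s) = 1 := by
    have := conj_pow_of_inverts (conj_mul_eq_inv q q') j
    rw [inv_eq_of_orderOf_two hs] at this
    rw [mul_assoc, ← mul_assoc s, this, mul_inv_cancel]
  generalize (s * s') ^ j = r at hj e
  have e2 : r * s * s * (r * s) = s' := by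
    have : r * s = s * r⁻¹ := by rw [eq_inv_of_mul_eq_one_right e, mul_inv_rev, inv_eq_of_orderOf_two hs]
    rw [← hj, mul_assoc r s s, q, mul_one, mul_assoc r s r⁻¹, ← this]
  have e3 : (r * s) • α = β := h.uniq hs' (by
    rw [smul_smul, ← e2, mul_assoc (r * s * s), e, mul_one, mul_smul, h1]) h2
  exact ⟨_, orderOf_two_of e fun e4 => hn (by rw [← e3, e4, one_smul]), e2, e3⟩

omit [Finite G] h in
theorem swap (hu : orderOf u = 2) (h1 : u • ω = ω') : u • ω' = ω := by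
  rw [← h1, smul_smul, mul_self_of_orderOf_two hu, one_smul]

omit [Finite G] h in
theorem inverts (hu : orderOf u = 2) (hu' : orderOf u' = 2) : u * (u * u') * u⁻¹ = (u * u')⁻¹ :=
  conj_mul_eq_inv (mul_self_of_orderOf_two hu) (mul_self_of_orderOf_two hu')

theorem swap_inj (hs : orderOf s = 2) (hu : orderOf u = 2) (hu' : orderOf u' = 2) (h1 : s • ω = ω)
    (h2 : u • ω = ω') (h3 : u' • ω = ω') (hn : ω ≠ ω') (e : u * s * u = u' * s * u') : u = u' := by
  have q := mul_self_of_orderOf_two hu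
  have q' := mul_self_of_orderOf_two hu'
  have hc : Commute s (u * u') := by
    have : u * u' * s = u * (u' * s * u') * u' := by simp only [mul_assoc, q', mul_one]
    rw [Commute, SemiconjBy, this, ← e]; simp only [← mul_assoc, q, one_mul]
  have hk : u * u' * (u * u') = 1 := by
    by_contra hk
    exact hn ((h.fix_of_inverts hs hu h1 hc (inverts hu hu') hk).symm.trans h2)
  have := eq_one_of_odd (h.odd_of_fix (by rw [mul_smul, h3, swap hu h2])
    (by rw [mul_smul, swap hu' h3, h2]) hn) hk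
  rw [← inv_eq_of_orderOf_two hu]; exact inv_eq_of_mul_eq_one_right this

omit [Finite G] h in
theorem conj_fix (hs : orderOf s = 2) (hu : orderOf u = 2) (h1 : s • ω = ω) :
    orderOf (u * s * u) = 2 ∧ (u * s * u) • u • ω = u • ω :=
  ⟨by simpa only [inv_eq_of_orderOf_two hu, hs] using orderOf_conj' u s,
    by rw [smul_smul, mul_assoc, mul_self_of_orderOf_two hu, mul_one, mul_smul, h1]⟩

/-- some product of two involutions of odd order has no fixed point -/
theorem exists_fpf (hn : α ≠ β) : ∃ t u : G, orderOf t = 2 ∧ orderOf u = 2 ∧ Odd (orderOf (t * u)) ∧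
    ∀ ω : Ω, (t * u) • ω ≠ ω := by
  by_contra! hc
  obtain ⟨t, ht, htα⟩ := h.inv α
  choose s hs hs' using h.inv
  have hX : ∀ u : {u : G // orderOf u = 2 ∧ u • α ≠ α}, ∃ ω : Ω, u.1 • ω = t • ω ∧ t • ω ≠ α ∧ t • ω ≠ ω := fun u => by
    obtain ⟨γ, hγ⟩ := h.ex _ u.2.1
    obtain ⟨ω, hω⟩ := hc t u ht u.2.1 (h.odd ht u.2.1 htα hγ fun e => u.2.2 (e ▸ hγ))
    have e : u.1 • ω = t • ω := (swap ht (by rwa [mul_smul] at hω)).symm
    have e2 : ω ≠ α := fun e2 => u.2.2 (by rw [e2, htα] at e; exact e)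
    exact ⟨ω, e, fun e3 => e2 ((swap ht e3).symm.trans htα), fun e3 => e2 (h.uniq ht e3 htα)⟩
  choose f f1 f2 f3 using hX
  let Ψ : {u : G // orderOf u = 2 ∧ u • α ≠ α} → {u : G // orderOf u = 2 ∧ u • α ≠ α} := fun u =>
    ⟨u * s (f u) * u, (conj_fix (hs _) u.2.1 (hs' _)).1, fun e =>
      f2 u ((f1 u).symm.trans (h.uniq (conj_fix (hs _) u.2.1 (hs' _)).1 (conj_fix (hs _) u.2.1 (hs' _)).2 e))⟩
  have key : ∀ (u : {u : G // orderOf u = 2 ∧ u • α ≠ α}) (v : G) (ω : Ω), orderOf v = 2 → v • ω = t • ω →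
      (Ψ u).1 = v * s ω * v → u.1 = v := fun u v ω hv e1 e2 => by
    have c1 := conj_fix (hs (f u)) u.2.1 (hs' _)
    have c2 := conj_fix (hs ω) hv (hs' _)
    have e3 : f u = ω := smul_left_cancel t (by
      rw [← f1, ← e1]; exact h.uniq c2.1 (e2 ▸ c1.2) c2.2)
    subst e3
    exact h.swap_inj (hs _) u.2.1 hv (hs' _) (f1 u) e1 (f3 u).symm e2
  have c := conj_fix (hs β) ht (hs' _)
  obtain ⟨u, hu⟩ := Finite.injective_iff_surjective.mp
    (fun u v e => Subtype.ext (key u v (f v) v.2.1 (f1 v) (congrArg Subtype.val e)) : Function.Injective Ψ)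
    ⟨t * s β * t, c.1, fun e => hn (htα.symm.trans (swap ht (h.uniq c.1 c.2 e)))⟩
  exact u.2.2 (by rw [key u t β ht rfl (congrArg Subtype.val hu), htα])

theorem conjElt (hn : α ≠ β) (hs : orderOf s = 2) (hs' : orderOf s' = 2) (h1 : s • α = α) (h2 : s' • α = α) :
    ConjElt (stabilizer G α) s s' := by
  obtain ⟨v, hv, hvβ⟩ := h.inv β
  obtain ⟨u, hu, e, h3⟩ := h.exists_swap hs hv h1 hvβ hn
  obtain ⟨u', hu', e', h4⟩ := h.exists_swap hv hs' hvβ h2 hn.symm
  refine ⟨u' * u, by rw [mem_stabilizer_iff, mul_smul, h3, h4], ?_⟩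
  rw [← e', ← e, mul_inv_rev, inv_eq_of_orderOf_two hu, inv_eq_of_orderOf_two hu']; group

end SE

end Cfsg.Agent.FT.Cons
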