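/- Groups whose `p'`-subgroups are abelian of exponent dividing `p - 1` are solvable.  Owner: helper3. -/
import Cfsg.Agent.FT.Cons.AbP2
import Cfsg.Agent.Lib.Glaub.Burnside

set_option autoImplicit false

namespace Cfsg.Agent.FT.Cons

open Subgroup MulAction Cfsg.Agent.Lib Cfsg.Agent.Lib.Core Cfsg.Agent.Lib.Invol
open scoped Cfsg.Agent.Lib.Glaub commutatorElement

variable {G : Type*} [Group G] [Finite G] {p : ℕ} [hp : Fact p.Prime] {Ω : Type*} [MulAction G Ω] {α β γ ω ω' : Ω}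
  {A M S T : Subgroup G} {k s s' t u u' x g : G}

/-- `M` is the unique maximal subgroup above the Sylow 2-subgroup `S` -/
structure UM (p : ℕ) (S A M : Subgroup G) : Prop where
  syl : IsSyl 2 S ⊤
  le : S ≤ A
  ne : M ≠ ⊤
  hall : IsHall {p}ᶜ A M
  uniq : ∀ H, H ≠ ⊤ → S ≤ H → H ≤ M

omit hp in
theorem UM.cj (h : UM p S A M) (g : G) : UM p cj(g, S) cj(g, A) cj(g, M) :=
  ⟨h.syl.cj_of_mem (mem_top g), cj_mono g h.le, cj_ne_top.mpr h.ne, h.hall.cj g, fun H hH hS =>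
    le_cj_iff_cj_inv_le.mpr (h.uniq _ (cj_ne_top.mpr hH) (cj_le_iff_le_cj_inv.mp hS))⟩

omit hp [Finite G] in
theorem UM.leM (h : UM p S A M) : S ≤ M := h.le.trans h.hall.le

omit hp in
theorem UM.exists_mem (h : UM p S A M) (ht : orderOf t = 2) (htM : t ∈ M) : ∃ S A, UM p S A M ∧ t ∈ S := by
  obtain ⟨m, hm, e⟩ := (h.syl.mono h.leM le_top).exists_conj_le (Q := zpowers t)
    (isPGroup_zpowers (k := 1) (by rw [← ht, pow_one, pow_orderOf_eq_one])) (by simpa using htM)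
  have := h.cj m⁻¹
  rw [cj_eq_of_mem (inv_mem hm)] at this
  exact ⟨_, _, this, cj_le_iff_le_cj_inv.mp e (mem_zpowers t)⟩

namespace MC

variable (h : MC p G)
include h

theorem ab2 (hS : IsPGroup 2 S) : S ≤ 𝐂(S) := (h.ap S (h.nd2 hS)).1

theorem ne_bot (hS : IsSyl 2 S ⊤) : Ohm1 S ≠ ⊥ := fun e => by
  have := h.five_le hS; rw [e, card_bot] at this; omega

theorem abelem (hS : IsPGroup 2 S) : IsElementaryAbelian 2 (Ohm1 S) :=
  Ohm1_abelem' hS (isComm_iff_le_cent.mpr (h.ab2 hS))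

theorem se [IsPretransitive G Ω] (ω : Ω) (hU : ∀ ω : Ω, ∃ S A, UM p S A (stabilizer G ω)) : SE G Ω := by
  refine ⟨fun t ht => ?_, fun {t ω ω'} ht h1 h2 => ?_, fun ω => ?_⟩
  · obtain ⟨S, A, hS⟩ := hU ω
    obtain ⟨m, -, e⟩ := hS.syl.exists_conj_le (Q := zpowers t)
      (isPGroup_zpowers (k := 1) (by rw [← ht, pow_one, pow_orderOf_eq_one])) le_top
    have : (m * t * m⁻¹) • ω = ω := hS.leM (cj_le_iff.mp e t (mem_zpowers t))
    exact ⟨m⁻¹ • ω, by rw [eq_inv_smul_iff, smul_smul, smul_smul, this]⟩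
  · obtain ⟨S, A, hS⟩ := hU ω
    obtain ⟨S', A', hS'⟩ := hU ω'
    obtain ⟨S, A, hS, h3⟩ := hS.exists_mem ht h1
    obtain ⟨S', A', hS', h4⟩ := hS'.exists_mem ht h2
    have h5 := h.C1_ne (ne_one_of_orderOf_two ht)
    have h6 := le_C1_iff.mpr (h.ab2 hS.syl.isPGroup h3)
    have h7 := le_C1_iff.mpr (h.ab2 hS'.syl.isPGroup h4)
    have e := le_antisymm (hS.uniq _ hS'.ne (h6.trans (hS'.uniq _ h5 h7))) (hS'.uniq _ hS.ne (h7.trans (hS.uniq _ h5 h6)))
    obtain ⟨g, rfl⟩ := exists_smul_eq G ω ω'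
    rw [stabilizer_smul_eq_stabilizer_map_conj] at e
    exact (hS.uniq _ (h.norm_ne (ne_bot_of_le ((Ohm1_le S).trans hS.leM) (h.ne_bot hS.syl)) (h.sol _ hS.ne))
      (hS.leM.trans le_normalizer) (cj_eq_iff.mp e)).symm
  · obtain ⟨S, A, hS⟩ := hU ω
    obtain ⟨t, ht, h1⟩ := exists_ne_one (h.ne_bot hS.syl)
    exact ⟨t, ExpDvd.orderOf_eq (h.abelem hS.syl.isPGroup).2 ht h1, hS.leM (Ohm1_le S ht)⟩

theorem isPGroup_of_inverts (hu : orderOf u = 2) (hi : u * k * u⁻¹ = k⁻¹) (hk : Odd (orderOf k)) :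
    IsPGroup p (zpowers k) := by
  refine isPi_singleton_iff.mp (isPi_of_forall_orderOf fun x hx hq => ?_)
  by_contra hn
  obtain ⟨j, rfl⟩ := mem_zpowers_iff.mp hx
  have e := conj_zpow_of_inverts hi j
  rw [zpow_neg] at e
  have ho : Odd (orderOf (k ^ j)) := hk.of_dvd_nat (orderOf_dvd_of_mem_zpowers hx)
  generalize k ^ j = y at *
  have hc := (h.ap _ (not_dvd_card_sup (H := zpowers u) (N := zpowers y)
    (by rw [Nat.card_zpowers, hu]; exact fun hd => h.ne_two ((Nat.prime_dvd_prime_iff_eq hp.out Nat.prime_two).mp hd))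
    (by rw [Nat.card_zpowers]; exact fun hd => hn ((Nat.prime_dvd_prime_iff_eq hp.out hq).mp hd).symm)
    (zpowers_le.mpr (cj_eq_iff.mp (by rw [cj_zpowers, e, zpowers_inv]))))).1
    (mem_sup_left (mem_zpowers u)) y (mem_sup_right (mem_zpowers y))
  rw [← hc, mul_inv_cancel_right] at e
  have := eq_one_of_odd ho (mul_eq_one_iff_eq_inv.mpr e)
  rw [this, orderOf_one] at hq
  exact Nat.not_prime_one hq

theorem dvd_card [Finite Ω] (hs : SE G Ω) (hn : α ≠ β) : p ∣ Nat.card Ω := by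
  obtain ⟨t, u, ht, hu, ho, hf⟩ := hs.exists_fpf hn
  by_contra hd
  obtain ⟨ω, hω⟩ := (h.isPGroup_of_inverts ht (SE.inverts ht hu) ho).nonempty_fixed_point_of_prime_not_dvd_card Ω hd
  exact hf ω (hω ⟨_, mem_zpowers _⟩)

theorem norm_Ohm1 (hU : UM p S A M) (hd : p ∣ M.index)
    (hc : ∀ s ∈ M, ∀ s' ∈ M, orderOf s = 2 → orderOf s' = 2 → ConjElt M s s') : M ≤ 𝐍(Ohm1 S) := by
  have hab := (h.ap A (isPi_compl_iff.mp hU.hall.isPi)).1
  have hs := h.sol M hU.ne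
  have hAS : A ≤ 𝐍(S) := hab.trans ((cent_anti hU.le).trans (cent_le_norm S))
  have hN : M ⊓ 𝐍(A) ≤ 𝐍(S) := inf_le_right.trans ((hU.syl.mono hU.le le_top).norm_le_norm hAS)
  have hR := OpOf_nrm p M
  have key : ∀ X : Subgroup G, OpOf p M ≤ 𝐍(X) → M ⊓ 𝐍(S) ≤ 𝐍(X) → M ≤ 𝐍(X) := fun X h1 h2 =>
    (hall_fact hs hU.hall hab).le_norm (sup_le h1 ((le_inf hU.hall.le hAS).trans h2)) ((le_inf inf_le_left hN).trans h2)
  refine key _ (le_normalizer_of_le_centralizer ?_) (inf_le_right.trans (norm_le_norm_Ohm1 S))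
  by_cases hR0 : OpOf p M = ⊥
  · rw [hR0]; exact bot_le
  obtain ⟨T, hT⟩ := exists_isSyl p M
  have hRT := OpOf_le_of_isSyl hT
  have hRS : M ≤ 𝐍(OpOf p M ⊔ S) := key _ (le_sup_left.trans le_normalizer)
    (le_normalizer_sup (inf_le_left.trans hR.norm) inf_le_right)
  have hY : T ⊔ (OpOf p M ⊔ S) ≤ M := sup_le hT.le (sup_le hR.le hU.leM)
  have hO : OppOf p (T ⊔ (OpOf p M ⊔ S)) ≠ ⊥ := fun hO => by
    have h1 := zj_amb h.five (isSolvable_of_le hs hY) hO (hT.mono le_sup_left hY)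
    have h2 := hU.uniq _ (h.norm_ne (ZJ.ZJT_ne_bot dvd_rfl hT.isPGroup (ne_bot_of_le hRT hR0))
      (isSolvable_of_isPGroup (hT.isPGroup.to_le (ZJ.ZJT_le T)))) ((le_sup_right.trans le_sup_right).trans h1)
    have h3 : IsSyl p T ⊤ := isSyl_of_isSyl_normalizer (hT.mono (le_inf le_top le_normalizer)
      (inf_le_right.trans ((ZJ.normalizer_le_normalizer_ZJT T).trans h2)))
    exact h3.not_dvd_relIndex hT.le (by rwa [relIndex_top_right])
  obtain ⟨t, ht, hq⟩ := exists_prime_orderOf_mem hO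
  have h2 : orderOf t = 2 := by
    have hπ : IsPi {p, 2} ↥(T ⊔ (OpOf p M ⊔ S)) := (isPi_of_isPGroup hT.isPGroup (by simp)).sup
      (sup_comm S _ ▸ (isPi_of_isPGroup hU.syl.isPGroup (by simp)).sup (isPi_of_isPGroup (OpOf_isPGroup M) (by simp))
        (hU.leM.trans hR.norm)) (hT.le.trans hRS)
    rcases hπ.orderOf_dvd (OppOf_le _ ht) hq dvd_rfl with e | e
    · exact absurd (e ▸ orderOf_dvd_card ht) (OppOf_not_dvd _)
    · exact e
  have h3 : t ∈ M ⊓ 𝐂(OpOf p M) := ⟨hY (OppOf_le _ ht), cent_comm.mp ((le_OpOf (le_sup_left.trans le_sup_right)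
    (hY.trans hR.norm) (OpOf_isPGroup M)).trans (OpOf_le_centralizer_OppOf _)) ht⟩
  refine cent_comm.mp fun x hx => ?_
  by_cases e : x = 1
  · rw [e]; exact one_mem _
  obtain ⟨g, hg, rfl⟩ := hc t h3.1 x (hU.leM (Ohm1_le S hx)) h2 (ExpDvd.orderOf_eq (h.abelem hU.syl.isPGroup).2 hx e)
  exact ((subcent_nrm hR.norm).conj_mem hg h3).2

theorem clique (hU : UM p S A M) (hd : p ∣ M.index)
    (hc : ∀ s ∈ M, ∀ s' ∈ M, orderOf s = 2 → orderOf s' = 2 → ConjElt M s s') :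
    M ≤ 𝐍(S) ∧ Nat.card S = p + 1 ∧ ExpDvd S 2 := by
  have hN := h.norm_Ohm1 hU hd hc
  have hE := h.abelem hU.syl.isPGroup
  have hab := (h.ap A (isPi_compl_iff.mp hU.hall.isPi)).1
  obtain ⟨t, ht, h1⟩ := exists_ne_one (h.ne_bot hU.syl)
  have hM := (Ohm1_le S).trans hU.leM
  have e1 : {x | ConjElt M t x} = sharp (Ohm1 S) := by
    ext x
    refine ⟨?_, fun hx => hc t (hM ht) x (hM hx.1) (ExpDvd.orderOf_eq hE.2 ht h1) (ExpDvd.orderOf_eq hE.2 hx.1 hx.2)⟩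
    rintro ⟨g, hg, rfl⟩
    exact (conj_mem_sharp (hN hg)).mpr ⟨ht, h1⟩
  have e2 := ncard_class M t
  rw [e1, ncard_sharp] at e2
  have e3 : (C1 t).relIndex M = p ^ ((C1 t).relIndex M).primeFactorsList.length :=
    Nat.eq_prime_pow_of_unique_prime_dvd (relIndex_ne_zero _ _) fun {q} hq hqd => by
      simpa using hU.hall.not_mem q hq (hqd.trans (relIndex_dvd_of_le_left _ (le_C1_iff.mpr (hab (hU.le (Ohm1_le S ht))))))
  obtain ⟨n, hn⟩ := exists_card_eq_pow (abelem_isPGroup hE)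
  have h5 := h.five_le hU.syl
  have h4 : 4 ∣ 2 ^ n := by
    rw [hn] at h5
    match n, h5 with
    | n + 2, _ => exact ⟨2 ^ n, by ring⟩
  have e4 := mersenne (hp.out.odd_of_ne_two h.ne_two) (n := n) (by rw [← e3, ← e2, hn]; omega) h4
  have e5 : 2 ^ n = p + 1 := by rw [← e4, ← e3, ← e2, hn]; omega
  have e6 : ExpDvd S 2 := fun x hx => by
    obtain ⟨j, hj⟩ := (IsPGroup.iff_orderOf.mp hU.syl.isPGroup) ⟨x, hx⟩
    rw [← orderOf_coe] at hj
    have h6 := orderOf_dvd_of_pow_eq_one ((h.ap S (h.nd2 hU.syl.isPGroup)).2 x hx)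
    refine orderOf_dvd_iff_pow_eq_one.mp ?_
    rw [hj] at h6 ⊢
    match j, h6 with
    | 0, _ => simp
    | 1, _ => simp
    | j + 2, h6 =>
      have : 4 ∣ p - 1 := Dvd.dvd.trans ⟨2 ^ j, by ring⟩ h6
      have := h.five
      omega
  rw [Ohm1_eq_of_expDvd e6] at hN hn
  exact ⟨hN, hn.trans e5, e6⟩

theorem final [Finite Ω] [IsPretransitive G Ω] (hU : ∀ ω : Ω, ∃ S A, UM p S A (stabilizer G ω)) (hn : α ≠ β) :
    False := by
  have hs := h.se α hU
  have hd := h.dvd_card hs hn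
  have hp5 := h.five
  have hodd := hp.out.odd_of_ne_two h.ne_two
  choose S A hU using hU
  have hC := fun ω => h.clique (hU ω) (by rwa [index_stabilizer_of_transitive]) fun s a s' b c d => by
    obtain ⟨ω', h1⟩ : ∃ ω', ω ≠ ω' := by
      by_cases e : ω = α
      exacts [⟨β, e ▸ hn⟩, ⟨α, e⟩]
    exact hs.conjElt h1 c d a b
  have mem : ∀ {s : G} {ω : Ω}, orderOf s = 2 → s • ω = ω → s ∈ S ω := fun {s ω} h1 h2 =>
    ((hU ω).syl.mono (hU ω).leM le_top).le_of_le_normalizer' (Q := zpowers s)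
      (isPGroup_zpowers (k := 1) (by rw [← h1, pow_one, pow_orderOf_eq_one])) (zpowers_le.mpr h2)
      (zpowers_le.mpr ((hC ω).1 h2)) (mem_zpowers s)
  have ord : ∀ {s : G} {ω : Ω}, s ∈ sharp (S ω) → orderOf s = 2 := fun {s ω} h1 => (hC ω).2.2.orderOf_eq h1.1 h1.2
  have ex : ∀ ω, ∃ s, s ∈ sharp (S ω) := fun ω =>
    sharp_nonempty.mpr (ne_bot_of_le (Ohm1_le _) (h.ne_bot (hU ω).syl))
  have cen : ∀ {x : G} {ω ω' : Ω}, x ≠ 1 → x ∈ 𝐂(S ω) → x ∈ 𝐂(S ω') → ω = ω' := fun {x ω ω'} h1 h2 h3 => by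
    obtain ⟨s, h4⟩ := ex ω'
    exact hs.uniq (ord h4) ((hU ω).uniq _ (h.C1_ne h1) (le_C1_iff.mpr h2) (le_C1_iff.mpr h3 h4.1)) ((hU ω').leM h4.1)
  have nocent : ∀ {k u s : G}, orderOf u = 2 → u * k * u⁻¹ = k⁻¹ → Odd (orderOf k) → k ≠ 1 → orderOf s = 2 →
      ¬ Commute s k := fun {k u s} hu hi hk h1 h2 hc => by
    have hk2 : k * k ≠ 1 := fun e => h1 (eq_one_of_odd hk e)
    obtain ⟨γ, hγ⟩ := hs.ex s h2
    have q := mul_self_of_orderOf_two hu
    have e : u * k * (u * k) = 1 := by rw [← mul_assoc, ← inv_eq_of_orderOf_two hu, inv_eq_of_orderOf_two hu,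
      show u * k * u = u * k * u⁻¹ by rw [inv_eq_of_orderOf_two hu], hi, inv_mul_cancel]
    have hu' : orderOf (u * k) = 2 := orderOf_two_of e fun e2 => by
      rw [← inv_eq_of_mul_eq_one_right e2, orderOf_inv, hu] at hk; exact absurd hk (by decide)
    have := h.ab2 (hU γ).syl.isPGroup (mem hu (hs.fix_of_inverts h2 hu hγ hc hi hk2)) _
      (mem hu' (hs.fix_of_inverts h2 hu' hγ hc (by rw [← hi]; group) hk2))
    rw [← mul_assoc, q, one_mul, ← inv_eq_of_orderOf_two hu, inv_eq_of_orderOf_two hu,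
      show u * k * u = u * k * u⁻¹ by rw [inv_eq_of_orderOf_two hu], hi] at this
    exact hk2 (mul_eq_one_iff_eq_inv.mpr this.symm)
  obtain ⟨T, hT⟩ := exists_isSyl p (stabilizer G α)
  have hF : p ≤ Nat.card (fixedPoints T Ω) := by
    haveI : Nonempty (fixedPoints T Ω) := ⟨⟨α, fun x => hT.le x.2⟩⟩
    exact Nat.le_of_dvd Nat.card_pos ((Nat.ModEq.dvd_iff (hT.isPGroup.card_modEq_card_fixedPoints Ω) dvd_rfl).mp hd)
  have le : ∀ η : fixedPoints T Ω, T ≤ stabilizer G η.1 := fun η x hx => η.2 ⟨x, hx⟩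
  have oddT : ∀ {x : G}, x ∈ T → Odd (orderOf x) := fun hx => Nat.odd_iff.mpr (Nat.two_dvd_ne_zero.mp fun e =>
    not_dvd_card_of_isPGroup hT.isPGroup h.ne_two.symm (e.trans (orderOf_dvd_card hx)))
  have two : ∀ {η η' : fixedPoints T Ω} {x : G}, η ≠ η' → x • η.1 = η → x • η'.1 = η' → x ∈ T := by
    intro η η' x h1 h2 h3
    obtain ⟨g, hg⟩ := exists_smul_eq G α η
    have h4 := (hT.conj g).of_card_le hT.isPGroup
      (by have := le η; rwa [← hg, stabilizer_smul_eq_stabilizer_map_conj] at this) (card_cj T g).le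
    have h5 : IsSyl p T (stabilizer G η.1) := by rwa [← hg, stabilizer_smul_eq_stabilizer_map_conj]
    have h6 : IsPGroup p ↥(stabilizer G η.1 ⊓ stabilizer G η'.1) := by
      refine isPi_singleton_iff.mp (isPi_of_forall_orderOf fun y hy hq => ?_)
      by_contra hne
      have h7 : ¬ p ∣ Nat.card (zpowers y) := by
        rw [Nat.card_zpowers]; exact fun hd => hne ((Nat.prime_dvd_prime_iff_eq hp.out hq).mp hd).symm
      refine h1 (Subtype.ext (cen (x := y) (fun e => ?_)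
        (h.le_cent (hU _).syl.isPGroup h7 (zpowers_le.mpr ((hC _).1 hy.1)) (mem_zpowers y))
        (h.le_cent (hU _).syl.isPGroup h7 (zpowers_le.mpr ((hC _).1 hy.2)) (mem_zpowers y))))
      rw [e, orderOf_one] at hq; exact Nat.not_prime_one hq
    exact h5.eq_of_le h6 (le_inf (le η) (le η')) inf_le_left ▸ (mem_inf.mpr ⟨h2, h3⟩)
  have swp : ∀ {η η' : fixedPoints T Ω}, η ≠ η' → ∃ u k : G, orderOf u = 2 ∧ u • η.1 = η' ∧ k ∈ T ∧ orderOf k = p ∧
      u * k * u⁻¹ = k⁻¹ := fun {η η'} h1 => by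
    obtain ⟨s, h2⟩ := ex η
    obtain ⟨s₁, h3, s₂, h4, h5⟩ := (Set.one_lt_ncard (Set.toFinite _)).mp
      (by rw [ncard_sharp, (hC η').2.1]; omega : 1 < (sharp (S η')).ncard)
    have h1' : η.1 ≠ η' := fun e => h1 (Subtype.ext e)
    obtain ⟨u, hu, e, h6⟩ := hs.exists_swap (ord h2) (ord h3) ((hU _).leM h2.1) ((hU _).leM h3.1) h1'
    obtain ⟨u', hu', e', h7⟩ := hs.exists_swap (ord h2) (ord h4) ((hU _).leM h2.1) ((hU _).leM h4.1) h1'
    have h8 : u * u' ∈ T := two h1 (by rw [mul_smul, h7, SE.swap hu h6]) (by rw [mul_smul, SE.swap hu' h7, h6])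
    have h9 : zpowers (u * u') ≠ ⊥ := zpowers_ne_bot.mpr fun e2 => h5 (by
      rw [← e, ← e', ← inv_eq_of_mul_eq_one_right e2, inv_eq_of_orderOf_two hu])
    obtain ⟨k, ⟨j, rfl⟩, hk⟩ := exists_orderOf_eq_prime hp.out
      (dvd_card_of_isPGroup_of_ne_bot (isPGroup_zpowers_of_mem hT.isPGroup h8) h9)
    exact ⟨u, _, hu, h6, zpow_mem h8 j, hk, by simpa only [zpow_neg] using conj_zpow_of_inverts (SE.inverts hu hu') j⟩
  have ne1 : ∀ {k : G}, orderOf k = p → k ≠ 1 := fun hk e => by rw [e, orderOf_one] at hk; omega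
  have same : ∀ {u u' k k' : G}, orderOf u = 2 → orderOf u' = 2 → k ∈ T → k' ∈ T → orderOf k = p → orderOf k' = p →
      u * k * u⁻¹ = k⁻¹ → u' * k' * u'⁻¹ = k'⁻¹ → u' * k * u'⁻¹ = k⁻¹ := by
    intro u u' k k' hu hu' hk hk' o o' i i'
    suffices H : k ∈ zpowers k' by
      obtain ⟨j, rfl⟩ := H
      simpa only [zpow_neg] using conj_zpow_of_inverts i' j
    by_contra H
    have H2 : ∀ η : fixedPoints T Ω, ∃ c ∈ sharp (zpowers k'), k * c ∈ 𝐂(S η) := fun η => by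
      obtain ⟨s, h2⟩ := ex η
      have hN := (le η).trans (hC η).1
      have e1 : {x | ConjElt (zpowers k') s x} = sharp (S η) := by
        refine Set.eq_of_subset_of_ncard_le ?_ ?_
        · rintro _ ⟨g, hg, rfl⟩
          exact (conj_mem_sharp (hN (zpowers_le.mpr hk' hg))).mpr h2
        · rw [ncard_class, ncard_sharp, (hC η).2.1, relIndex_eq_card_of_inf_eq_bot, Nat.card_zpowers, o']
          · omega
          rw [inf_comm]
          exact inf_eq_bot_of_card_prime (by rw [Nat.card_zpowers, o']; exact hp.out) fun hle =>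
            nocent hu' i' (oddT hk') (ne1 o') (ord h2) (mem_C1_iff_commute.mp (hle (mem_zpowers _))).symm
      obtain ⟨c, hc, e⟩ : k⁻¹ * s * k⁻¹⁻¹ ∈ {x | ConjElt (zpowers k') s x} :=
        e1 ▸ (conj_mem_sharp (hN (inv_mem hk))).mpr h2
      have h3 : k * c ∈ C1 s := mem_C1_iff_conj.mpr (by
        rw [show k * c * s * (k * c)⁻¹ = k * (c * s * c⁻¹) * k⁻¹ by group, ← e]; group)
      refine ⟨c, ⟨hc, fun e1 => nocent hu i (oddT hk) (ne1 o) (ord h2) ?_⟩, ?_⟩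
      · rw [e1, mul_one] at h3; exact (mem_C1_iff_commute.mp h3).symm
      have h4 := mul_mem hk (zpowers_le.mpr hk' hc)
      have h5 := Transfer.card_modEq_card_inf_centralizer (isPGroup_zpowers_of_mem hT.isPGroup h4)
        (zpowers_le.mpr (hN h4))
      rw [cent_zpowers, (hC η).2.1] at h5
      have h6 : 1 < Nat.card ↥(S η ⊓ C1 (k * c)) :=
        one_lt_card_iff.mpr (ne_bot_of_mem (mem_inf.mpr ⟨h2.1, mem_C1_comm.mp h3⟩) h2.2)
      have h7 : p ∣ Nat.card ↥(S η ⊓ C1 (k * c)) - 1 :=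
        (Nat.modEq_iff_dvd' h6.le).mp ((Nat.ModEq.symm (by simp [Nat.ModEq])).trans h5)
      have h8 := Nat.le_of_dvd (by omega) h7
      exact le_C1_iff.mp (inf_eq_left.mp (eq_of_le_of_card_ge inf_le_left (by rw [(hC η).2.1]; omega)))
    choose c c1 c2 using H2
    have := Nat.card_le_card_of_injective (fun η => (⟨c η, c1 η⟩ : sharp (zpowers k'))) fun η η' e => by
      replace e : c η = c η' := congrArg Subtype.val e
      refine Subtype.ext (cen (fun e1 => H ?_) (c2 η) (e ▸ c2 η'))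
      rw [eq_inv_of_mul_eq_one_left e1]; exact inv_mem (c1 η).1
    rw [Nat.card_coe_set_eq (sharp _), ncard_sharp, Nat.card_zpowers, o'] at this
    omega
  haveI := Fintype.ofFinite (fixedPoints T Ω)
  obtain ⟨a, b, c, ab, ac, bc⟩ := Fintype.two_lt_card_iff.mp (by rw [← Nat.card_eq_fintype_card]; omega :
    2 < Fintype.card (fixedPoints T Ω))
  obtain ⟨u₁, k, o1, f1, hk, ok, i1⟩ := swp ab
  obtain ⟨u₂, k₂, o2, f2, hk2, ok2, i2⟩ := swp bc
  obtain ⟨u₃, k₃, o3, f3, hk3, ok3, i3⟩ := swp ac.symm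
  replace i2 := same o1 o2 hk hk2 ok ok2 i1 i2
  replace i3 := same o1 o3 hk hk3 ok ok3 i1 i3
  have hz : u₃ * u₂ * u₁ ∈ stabilizer G a.1 := by rw [mem_stabilizer_iff, mul_smul, mul_smul, f1, f2, f3]
  have i4 : u₃ * u₂ * u₁ * k * (u₃ * u₂ * u₁)⁻¹ = k⁻¹ := by
    rw [show u₃ * u₂ * u₁ * k * (u₃ * u₂ * u₁)⁻¹ = u₃ * (u₂ * (u₁ * k * u₁⁻¹)⁻¹ * u₂⁻¹)⁻¹ * u₃⁻¹ by group,
      i1, inv_inv, i2, inv_inv, i3]
  have hS := (hU a).syl.mono (hU a).leM le_top
  haveI := (nrm_iff_normal_subgroupOf.mp ⟨hS.le, (hC a).1⟩).2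
  have h1 : (u₃ * u₂ * u₁) ^ (S a).relIndex (stabilizer G a.1) ∈ S a :=
    pow_index_mem ((S a).subgroupOf (stabilizer G a.1)) ⟨_, hz⟩
  have h2 := sq_of_inverts_odd i4 _ (Nat.odd_iff.mpr (Nat.two_dvd_ne_zero.mp hS.not_dvd))
  generalize (u₃ * u₂ * u₁) ^ (S a).relIndex (stabilizer G a.1) = s at h1 h2
  have h3 := (hC a).2.2 _ (mul_mem h1 (conj_mem_of_mem_normalizer ((hC a).1 (le a hk)) (inv_mem h1)))
  rw [show s * (k * s⁻¹ * k⁻¹) = s * k * s⁻¹ * k⁻¹ by group, h2, ← sq, ← pow_mul, inv_pow, inv_eq_one] at h3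
  have := Nat.le_of_dvd (by norm_num) (ok ▸ orderOf_dvd_of_pow_eq_one h3)
  omega

theorem false : False := by
  obtain ⟨S, hS⟩ := exists_isSyl 2 (⊤ : Subgroup G)
  obtain ⟨A, M, h1, h2, h3, h4⟩ := h.exists_M hS
  obtain ⟨g, hg⟩ : ∃ g, g ∉ M := by by_contra! hc; exact h2 (eq_top_iff.mpr fun x _ => hc x)
  refine h.final (Ω := G ⧸ M) (α := ((1 : G) : G ⧸ M)) (β := (g : G ⧸ M)) (fun ω => ?_)
    fun e => hg (by simpa using QuotientGroup.eq.mp e)
  obtain ⟨x, rfl⟩ := exists_smul_eq G ((1 : G) : G ⧸ M) ω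
  rw [stabilizer_smul_eq_stabilizer_map_conj, stabilizer_quotient]
  exact ⟨_, _, UM.cj ⟨hS, h1, h2, h3, h4⟩ x⟩

end MC

universe u

theorem solvable_of_AP (G : Type u) [Group G] [Finite G] : AP p G → Group.IsSolvable G := by
  refine card_induction (P := fun G _ _ => AP p G → Group.IsSolvable G) (fun G _ _ ih h => ?_) G
  by_contra hs
  have sol : ∀ H : Subgroup G, H ≠ ⊤ → Group.IsSolvable H := fun H hH => ih H (card_lt_of_ne_top hH) (h.sub H)
  have h5 : 5 ≤ p := by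
    by_contra! h5
    refine hs (Glaub.isSolvable_of_two_primes hp.out Nat.prime_two G fun r hr hd => or_iff_not_imp_left.mpr fun e => ?_)
    obtain ⟨x, -, hx⟩ := exists_orderOf_eq_prime (H := (⊤ : Subgroup G)) hr (by rwa [card_top])
    have h1 := orderOf_dvd_of_pow_eq_one ((h (zpowers x) (by
      rw [Nat.card_zpowers, hx]; exact fun hd => e ((Nat.prime_dvd_prime_iff_eq hp.out hr).mp hd).symm)).2 x (mem_zpowers x))
    have h2 := hp.out.two_le
    have h3 := Nat.le_of_dvd (by omega) h1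
    have h4 := hr.two_le
    have : p ≠ 4 := fun e => by have := hp.out; rw [e] at this; exact absurd this (by decide)
    omega
  haveI : Nontrivial G := by
    by_contra h
    haveI := not_nontrivial_iff_subsingleton.mp h
    exact hs inferInstance
  refine MC.false (p := p) (G := G) ⟨h, h5, ⟨fun N hN => ?_⟩, hs, sol⟩
  by_contra! h1
  haveI := sol N h1.2
  haveI := ih (G ⧸ N) (card_quotient_lt h1.1) (h.map _ (QuotientGroup.mk'_surjective N))
  exact hs (Group.isSolvable_of_ker_le_range N.subtype (QuotientGroup.mk' N) (by simp))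

end Cfsg.Agent.FT.Cons
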